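import Cfsg.Agent.LocalEven.CoprimeLemmas
import Cfsg.Agent.PSolv.HallHigman
import Cfsg.Agent.Cores.Basic
import Cfsg.Agent.Coprime.Action
import Cfsg.Agent.Coprime.Generation
import Cfsg.Agent.LAE60.Basic

/-!
Flavell's control of `O_{q'}` of centralisers by coprime operators.
-/

set_option autoImplicit false
set_option linter.unusedSectionVars false
set_option linter.style.haveILetI false

namespace Cfsg.Agent.FG3Core

open Subgroup
open scoped Pointwise commutatorElement

variable {G : Type*} [Group G] [Finite G]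

/-- `O_{q'}(K)` as a subgroup of the ambient group. -/
abbrev Oq (q : ℕ) (K : Subgroup G) : Subgroup G := (Cfsg.pPrimeCore q ↥K).map K.subtype

theorem Oq_le (q : ℕ) (K : Subgroup G) : Oq q K ≤ K := Subgroup.map_subtype_le _

theorem Oq_coprime (q : ℕ) (K : Subgroup G) : (Nat.card (Oq q K)).Coprime q :=
  Cores.pPrimeCore_coprime.coprime_dvd_left (Subgroup.card_map_dvd _ _)

theorem normalizer_le_normalizer_Oq (q : ℕ) (K : Subgroup G) :
    normalizer (K : Set G) ≤ normalizer (Oq q K : Set G) :=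
  Coprime.normalizer_le_normalizer_map_characteristic K _

theorem le_Oq {q : ℕ} {N K : Subgroup G} (hNK : N ≤ K) (hn : K ≤ normalizer (N : Set G))
    (hc : (Nat.card N).Coprime q) : N ≤ Oq q K := by
  haveI : (N.subgroupOf K).Normal := (Subgroup.normal_subgroupOf_iff_le_normalizer hNK).2 hn
  have h := Subgroup.map_mono (f := K.subtype) (Cores.le_pPrimeCore (p := q) (N := N.subgroupOf K)
    inferInstance (by rwa [Nat.card_congr (Subgroup.subgroupOfEquivOfLe hNK).toEquiv]))
  rwa [Subgroup.map_subgroupOf_eq_of_le hNK] at h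

theorem map_Oq_le {G' : Type*} [Group G'] [Finite G'] (f : G →* G') (q : ℕ) (K : Subgroup G) :
    (Oq q K).map f ≤ Oq q (K.map f) :=
  le_Oq (Subgroup.map_mono (Oq_le q K))
    ((Subgroup.map_mono (Subgroup.le_normalizer.trans (normalizer_le_normalizer_Oq q K))).trans
      (Subgroup.le_normalizer_map f))
    ((Oq_coprime q K).coprime_dvd_left (Subgroup.card_map_dvd _ f))

theorem commute_of_disjoint {A B : Subgroup G} (hc : (Nat.card A).Coprime (Nat.card B)) {x y : G}
    (hx : x ∈ A) (hy : y ∈ B) (hxn : x ∈ normalizer (B : Set G))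
    (hyn : y ∈ normalizer (A : Set G)) : Commute x y := by
  have h1 : ⁅x, y⁆ ∈ A := by
    rw [commutatorElement_def, mul_assoc, mul_assoc, ← mul_assoc y]
    exact A.mul_mem hx ((Subgroup.mem_normalizer_iff.1 hyn x⁻¹).1 (A.inv_mem hx))
  have h2 : ⁅x, y⁆ ∈ B := by
    rw [commutatorElement_def]
    exact B.mul_mem ((Subgroup.mem_normalizer_iff.1 hxn y).1 hy) (B.inv_mem hy)
  have h3 : ⁅x, y⁆ ∈ A ⊓ B := ⟨h1, h2⟩
  rw [Subgroup.inf_eq_bot_of_coprime hc, Subgroup.mem_bot] at h3
  exact commutatorElement_eq_one_iff_mul_comm.1 h3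

theorem core_control_reduced {p q : ℕ} [Fact p.Prime] [hq : Fact q.Prime] (H P : Subgroup G)
    [H.Normal] (hP : IsPGroup p P) (hcop : (Nat.card P).Coprime (Nat.card H))
    (hS : Group.IsSolvable ↥⁅H, P⁆) (hO : Oq q H = ⊥) {z : G} (hzH : z ∈ H)
    (hzP : z ∈ centralizer (P : Set G)) (hz : IsPGroup q (zpowers z)) :
    ⁅Oq q (H ⊓ centralizer ({z} : Set G)), P⁆ = ⊥ ∧
      Oq q (H ⊓ centralizer ({z} : Set G)) ⊓ Oq q (H ⊓ centralizer (P : Set G)) = ⊥ := by
  have hHn : ∀ Y : Subgroup G, Y ≤ normalizer (H : Set G) := fun Y =>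
    Subgroup.le_normalizer_of_normal
  set S := ⁅H, P⁆ with hSdef
  have hSH : S ≤ H := Coprime.commutator_le_of_le_normalizer (hHn P)
  have hHS : H ≤ normalizer (S : Set G) := Coprime.le_normalizer_commutator_left H P
  have hPS : P ≤ normalizer (S : Set G) := Coprime.le_normalizer_commutator_right H P
  set Q := (Cfsg.pCore q ↥S).map S.subtype with hQ
  have hQS : Q ≤ S := Subgroup.map_subtype_le _
  have hQp : IsPGroup q Q := Cores.pCore_isPGroup.map _
  have hSQ : normalizer (S : Set G) ≤ normalizer (Q : Set G) :=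
    Coprime.normalizer_le_normalizer_map_characteristic S _
  have hOS : Cfsg.pPrimeCore q ↥S = ⊥ := by
    refine Subgroup.map_injective S.subtype_injective ?_
    rw [Subgroup.map_bot, ← le_bot_iff, ← hO]
    exact le_Oq ((Oq_le q S).trans hSH) (hHS.trans (normalizer_le_normalizer_Oq q S))
      (Oq_coprime q S)
  have hCS : ∀ x ∈ S, x ∈ centralizer (Q : Set G) → x ∈ Q := by
    intro x hx hxc
    have hmem : (⟨x, hx⟩ : S) ∈ centralizer (Cfsg.pCore q ↥S : Set S) :=
      Subgroup.mem_centralizer_iff.2 fun y hy =>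
        Subtype.ext (Subgroup.mem_centralizer_iff.1 hxc _ ⟨y, hy, rfl⟩)
    exact ⟨_, PSolv.centralizer_pCore_le (PSolv.isPSolvable_of_isSolvable hS) hOS hmem, rfl⟩
  have hzc : ∀ {x : G}, x ∈ centralizer ({z} : Set G) → Commute x z := fun hx =>
    Subgroup.mem_centralizer_singleton_iff.1 hx
  set B := Oq q (H ⊓ centralizer ({z} : Set G)) with hB
  have hBle : B ≤ H ⊓ centralizer ({z} : Set G) := Oq_le q _
  have hBQc : B ≤ centralizer (Q : Set G) := by
    intro b hb
    refine Subgroup.mem_centralizer_iff.2 fun y hy => ?_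
    have hbH := (hBle hb).1
    refine (LocalEven.aXb_lemma (P := Q) (A := zpowers z) (x := b) hQp hz
      (zpowers_le.2 (hSQ (hHS hzH))) (hSQ (hHS hbH)) ?_ ?_ ?_ y hy).eq.symm
    · intro hd
      exact hq.1.ne_one (Nat.eq_one_of_dvd_coprimes (Oq_coprime q _)
        (hd.trans (Subgroup.orderOf_dvd_natCard B hb)) dvd_rfl)
    · rintro a ⟨n, rfl⟩
      exact (hzc (hBle hb).2).zpow_right n
    · intro c hc hcz
      have hcC : c ∈ centralizer ({z} : Set G) :=
        Subgroup.mem_centralizer_singleton_iff.2 (hcz z (mem_zpowers z)).eq.symm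
      obtain ⟨k, hk⟩ := hQp.exists_card_eq
      refine commute_of_disjoint (by rw [hk]; exact (Oq_coprime q _).pow_right k) hb hc
        (hSQ (hHS hbH)) ?_
      exact (Subgroup.le_normalizer.trans (normalizer_le_normalizer_Oq q _))
        (show c ∈ H ⊓ centralizer ({z} : Set G) from ⟨hSH (hQS hc), hcC⟩)
  have hPn : P ≤ normalizer (B : Set G) := by
    refine le_trans ?_ (normalizer_le_normalizer_Oq q _)
    intro x hx
    have hxz : x ∈ normalizer (centralizer ({z} : Set G) : Set G) :=
      Subgroup.le_normalizer (Subgroup.mem_centralizer_singleton_iff.2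
        (Subgroup.mem_centralizer_iff.1 hzP x hx))
    have hxH := hHn P hx
    rw [Subgroup.mem_normalizer_iff] at hxz hxH ⊢
    exact fun w => and_congr (hxH w) (hxz w)
  refine ⟨?_, ?_⟩
  · set W := ⁅B, P⁆ with hW
    have hWB : W ≤ B := Coprime.commutator_le_of_le_normalizer hPn
    have hWS : W ≤ S := Subgroup.commutator_mono (hBle.trans inf_le_left) le_rfl
    refine eq_bot_iff.2 fun w hw => ?_
    obtain ⟨k, hk⟩ := hQp.exists_card_eq
    have hmem : w ∈ B ⊓ Q := ⟨hWB hw, hCS w (hWS hw) (hBQc (hWB hw))⟩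
    rwa [Subgroup.inf_eq_bot_of_coprime
      (by rw [hk]; exact (Oq_coprime q _).pow_right k)] at hmem
  · set C := H ⊓ centralizer (Q : Set G) with hC
    set D := H ⊓ centralizer (P : Set G) with hD
    set A := Oq q D ⊓ C with hA
    suffices h : A = ⊥ by
      rw [eq_bot_iff, ← h]
      exact le_inf inf_le_right ((inf_le_left).trans (le_inf (hBle.trans inf_le_left) hBQc))
    have hCn : P ⊔ H ≤ normalizer (C : Set G) := by
      intro x hx
      have h1 := hHn (P ⊔ H) hx
      have h2 : x ∈ normalizer (centralizer (Q : Set G) : Set G) :=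
        LAE60.normalizer_le_normalizer_centralizer Q (hSQ ((sup_le hPS hHS : P ⊔ H ≤ _) hx))
      rw [Subgroup.mem_normalizer_iff] at h1 h2 ⊢
      exact fun w => and_congr (h1 w) (h2 w)
    have hPC : P ≤ normalizer (C : Set G) := le_sup_left.trans hCn
    have hcomm : ⁅C, P⁆ ≤ Q := fun w hw =>
      hCS w (Subgroup.commutator_mono (inf_le_left : C ≤ H) le_rfl hw)
        ((Coprime.commutator_le_of_le_normalizer hPC hw).2)
    have hcopC : (Nat.card P).Coprime (Nat.card C) :=
      hcop.coprime_dvd_right (Subgroup.card_dvd_of_le inf_le_left)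
    haveI : Group.IsSolvable P := by haveI := hP.isNilpotent; infer_instance
    have hCA : C ≤ normalizer (A : Set G) := by
      intro c hc
      obtain ⟨c₁, hc₁, y, hy, rfl⟩ := Coprime.exists_mul_commutator hPC hcopC (Or.inl inferInstance) hc
      refine mul_mem ?_ (centralizer_le_normalizer _ ?_)
      · have h1 : c₁ ∈ normalizer (Oq q D : Set G) :=
          (Subgroup.le_normalizer.trans (normalizer_le_normalizer_Oq q D))
            (show c₁ ∈ D from ⟨hc₁.1.1, hc₁.2⟩)
        have h2 : c₁ ∈ normalizer (C : Set G) := Subgroup.le_normalizer hc₁.1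
        rw [Subgroup.mem_normalizer_iff] at h1 h2 ⊢
        exact fun w => and_congr (h1 w) (h2 w)
      · exact Subgroup.mem_centralizer_iff.2 fun a ha =>
          (Subgroup.mem_centralizer_iff.1 ha.2.2 y (hcomm hy)).symm
    have h1 : A ≤ Oq q C := le_Oq inf_le_right hCA
      ((Oq_coprime q D).coprime_dvd_left (Subgroup.card_dvd_of_le inf_le_left))
    rw [eq_bot_iff, ← hO]
    exact h1.trans (le_Oq ((Oq_le q C).trans inf_le_left)
      ((le_sup_right.trans hCn).trans (normalizer_le_normalizer_Oq q C)) (Oq_coprime q C))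

theorem core_control {p q : ℕ} [Fact p.Prime] [hq : Fact q.Prime] (H P : Subgroup G)
    [H.Normal] (hP : IsPGroup p P) (hcop : (Nat.card P).Coprime (Nat.card H))
    (hS : Group.IsSolvable ↥⁅H, P⁆) {z : G} (hzH : z ∈ H)
    (hzP : z ∈ centralizer (P : Set G)) (hz : IsPGroup q (zpowers z)) :
    (Oq q (H ⊓ centralizer ({z} : Set G)) ⊓ Oq q (H ⊓ centralizer (P : Set G))) ⊔
      ⁅Oq q (H ⊓ centralizer ({z} : Set G)), P⁆ ≤ Oq q H := by
  set X := Oq q H with hX
  haveI : X.Normal := Subgroup.normalizer_eq_top_iff.1 (top_le_iff.1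
    ((Subgroup.le_normalizer_of_normal : (⊤ : Subgroup G) ≤ normalizer (H : Set G)).trans (normalizer_le_normalizer_Oq q H)))
  have hXH : X ≤ H := Oq_le q H
  set f := QuotientGroup.mk' X with hf
  have hker : f.ker = X := QuotientGroup.ker_mk' X
  haveI : (H.map f).Normal := Subgroup.Normal.map inferInstance f (QuotientGroup.mk'_surjective X)
  haveI hPs : Group.IsSolvable P := by haveI := hP.isNilpotent; infer_instance
  have hPX : (Nat.card P).Coprime (Nat.card X) :=
    hcop.coprime_dvd_right (Subgroup.card_dvd_of_le hXH)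
  have hzX : (Nat.card (zpowers z)).Coprime (Nat.card X) := by
    obtain ⟨k, hk⟩ := hz.exists_card_eq
    rw [hk]
    exact (Oq_coprime q H).symm.pow_left k
  have hsingle : ∀ (y : G), centralizer ((zpowers y : Subgroup G) : Set G) = centralizer ({y} : Set G) :=
    fun y => by rw [Subgroup.zpowers_eq_closure, Subgroup.centralizer_closure]
  have e1 : (H ⊓ centralizer ({z} : Set G)).map f = H.map f ⊓ centralizer ({f z} : Set (G ⧸ X)) := by
    have h := Coprime.inf_centralizer_map_mk' (zpowers z) H X hXH hzX (Or.inl inferInstance)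
    rw [MonoidHom.map_zpowers, hsingle] at h
    rw [← h, Subgroup.zpowers_eq_closure, Subgroup.centralizer_closure]
  have e2 := Coprime.inf_centralizer_map_mk' P H X hXH hPX (Or.inl hPs)
  have hO : Oq q (H.map f) = ⊥ := by
    haveI : (Oq q (H.map f)).Normal := Subgroup.normalizer_eq_top_iff.1 (top_le_iff.1
      ((Subgroup.le_normalizer_of_normal : (⊤ : Subgroup (G ⧸ X)) ≤ normalizer ((H.map f : Subgroup (G ⧸ X)) : Set (G ⧸ X))).trans
        (normalizer_le_normalizer_Oq q _)))
    set Y := (Oq q (H.map f)).comap f with hY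
    have hYH : Y ≤ H := by
      refine (Subgroup.comap_mono (Oq_le q _)).trans ?_
      rw [Subgroup.comap_map_eq, hker, sup_eq_left.2 hXH]
    have hYc : (Nat.card Y).Coprime q := by
      rw [hY, Cores.card_comap_mk_eq]
      exact (Oq_coprime q H).mul_left (Oq_coprime q _)
    rw [← Subgroup.map_comap_eq_self_of_surjective (QuotientGroup.mk'_surjective X)
      (Oq q (H.map f)), ← le_bot_iff]
    exact (Subgroup.map_mono (le_Oq hYH Subgroup.le_normalizer_of_normal hYc)).trans
      (QuotientGroup.map_mk'_self X).le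
  have hS' : Group.IsSolvable ↥⁅H.map f, P.map f⁆ := by
    rw [← Subgroup.map_commutator]
    haveI := hS
    exact Group.isSolvable_of_surjective (f.subgroupMap_surjective _)
  obtain ⟨hW, hA⟩ := core_control_reduced (q := q) (H.map f) (P.map f) (hP.map f)
    ((hcop.coprime_dvd_left (Subgroup.card_map_dvd _ f)).coprime_dvd_right
      (Subgroup.card_map_dvd _ f)) hS' hO (Subgroup.mem_map_of_mem f hzH)
    (Subgroup.mem_centralizer_iff.2 fun x hx => by
      obtain ⟨y, hy, rfl⟩ := hx
      rw [← map_mul, ← map_mul, Subgroup.mem_centralizer_iff.1 hzP y hy])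
    (by rw [← MonoidHom.map_zpowers]; exact hz.map f)
  have hBf : (Oq q (H ⊓ centralizer ({z} : Set G))).map f ≤
      Oq q (H.map f ⊓ centralizer ({f z} : Set (G ⧸ X))) := e1 ▸ map_Oq_le f q _
  have hDf : (Oq q (H ⊓ centralizer (P : Set G))).map f ≤
      Oq q (H.map f ⊓ centralizer ((P.map f : Subgroup (G ⧸ X)) : Set (G ⧸ X))) :=
    e2 ▸ map_Oq_le f q _
  refine sup_le ?_ ?_ <;> rw [← hker, ← Subgroup.map_eq_bot_iff, eq_bot_iff]
  · rw [← hA]
    exact (Subgroup.map_inf_le _ _ f).trans (inf_le_inf hBf hDf)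
  · rw [← hW, Subgroup.map_commutator]
    exact Subgroup.commutator_mono hBf le_rfl

end Cfsg.Agent.FG3Core
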